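import Cfsg.Agent.CharInd.BrauerPerm

/-!
# Characters of a normal subgroup fixed by an element whose class contains the whole coset

If all elements of `x N` are conjugate, then `x` fixes exactly `|C_N(x)|` classes, hence as many
irreducible characters, of `N`.
-/

set_option autoImplicit false

namespace Cfsg.Agent.CaminaFpf

universe u

variable {G : Type u} [Group G] [Finite G]

omit [Finite G] in
/-- Centralisers in a normal subgroup of conjugate elements have the same order. -/
theorem card_centralizer_conj (N : Subgroup G) [N.Normal] (x y : G) :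
    Nat.card {u : N // Commute (y * x * y⁻¹) (u : G)} = Nat.card {u : N // Commute x (u : G)} := by
  refine Nat.card_congr (((MulAut.conjNormal y⁻¹ : MulAut N).toEquiv).subtypeEquiv fun u => ?_)
  show Commute (y * x * y⁻¹) (u : G) ↔ Commute x ((MulAut.conjNormal y⁻¹ u : N) : G)
  rw [MulAut.conjNormal_apply, ← (Commute.conj_iff y : Commute (y * x * y⁻¹)
    (y * (y⁻¹ * (u : G) * y⁻¹⁻¹) * y⁻¹) ↔ _)]
  rw [show y * (y⁻¹ * (u : G) * y⁻¹⁻¹) * y⁻¹ = (u : G) by group]

/-- If all of `x N` is conjugate to `x`, then `x` fixes `|C_N(x)|` irreducible characters of `N`. -/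
theorem card_fixed_irr {G : Type u} [Group G] [Finite G] (N : Subgroup G) [N.Normal] (x : G)
    (h : ∀ n ∈ N, ∃ y : G, y * x * y⁻¹ = x * n) :
    Nat.card {χ : Cfsg.IrrCharacter ↥N //
        (χ : ↥N → ℂ) ∘ (MulAut.conjNormal x : MulAut ↥N) = (χ : ↥N → ℂ)} =
      Nat.card ↥(N ⊓ Subgroup.centralizer ({x} : Set G)) := by
  classical
  rw [← CharInd.brauer_perm (MulAut.conjNormal x : MulAut ↥N)]
  letI := Fintype.ofFinite N
  haveI : Finite (ConjClasses N) := Finite.of_surjective ConjClasses.mk ConjClasses.mk_surjective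
  letI := Fintype.ofFinite (ConjClasses N)
  set α : MulAut N := MulAut.conjNormal x with hα
  -- the two counts of commuting pairs `(x n, u)`
  let f : N → ℕ := fun u => Nat.card {n : N // Commute (x * (n : G)) (u : G)}
  have h1 : ∀ n : N, Nat.card {u : N // Commute (x * (n : G)) (u : G)} =
      Nat.card {u : N // Commute x (u : G)} := by
    intro n
    obtain ⟨y, hy⟩ := h n n.2
    rw [← hy]
    exact card_centralizer_conj N x y
  have hT : ∑ u : N, f u = Nat.card N * Nat.card {u : N // Commute x (u : G)} := by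
    simp only [f, Nat.card_eq_fintype_card, Fintype.card_subtype]
    simp only [Finset.card_filter]
    rw [Finset.sum_comm]
    rw [Finset.sum_congr rfl fun n _ => ?_, Finset.sum_const, smul_eq_mul, Finset.card_univ]
    have := h1 n
    simp only [Nat.card_eq_fintype_card, Fintype.card_subtype, Finset.card_filter] at this
    exact this
  have hfix : ∀ u : N, f u =
      if IsConj (α u) u then Nat.card (Subgroup.centralizer ({u} : Set N)) else 0 := by
    intro u
    have hiff : ∀ n : N, Commute (x * (n : G)) (u : G) ↔ α (n * u * n⁻¹) = u := by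
      intro n
      rw [Subtype.ext_iff, hα, MulAut.conjNormal_apply]
      push_cast
      constructor
      · intro hc
        calc x * ((n : G) * u * (n : G)⁻¹) * x⁻¹ = (x * n) * u * ((n : G)⁻¹ * x⁻¹) := by group
          _ = u * (x * n) * ((n : G)⁻¹ * x⁻¹) := by rw [hc.eq]
          _ = u := by group
      · intro hc
        calc x * (n : G) * u = (x * ((n : G) * u * (n : G)⁻¹) * x⁻¹) * (x * n) := by group
          _ = u * (x * n) := by rw [hc]
    by_cases hu : IsConj (α u) u
    · rw [if_pos hu]
      have hu' : IsConj u (α⁻¹ u) := by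
        simpa using (α⁻¹ : MulAut N).toMonoidHom.map_isConj hu
      obtain ⟨c, hc⟩ := isConj_iff.1 hu'
      refine Nat.card_congr ((Equiv.mulLeft c⁻¹).subtypeEquiv fun n => ?_)
      rw [hiff, Equiv.coe_mulLeft, Subgroup.mem_centralizer_singleton_iff]
      constructor
      · intro hn
        have hn' : n * u * n⁻¹ = α⁻¹ u := α.injective (hn.trans (MulAut.apply_inv_self _ _ _).symm)
        calc c⁻¹ * n * u = c⁻¹ * (n * u * n⁻¹) * n := by group
          _ = c⁻¹ * (c * u * c⁻¹) * n := by rw [hn', hc]
          _ = u * (c⁻¹ * n) := by group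
      · intro hn
        have hn' : n * u * n⁻¹ = α⁻¹ u := by
          rw [← hc]
          calc n * u * n⁻¹ = c * (c⁻¹ * n * u) * n⁻¹ := by group
            _ = c * (u * (c⁻¹ * n)) * n⁻¹ := by rw [hn]
            _ = c * u * c⁻¹ := by group
        rw [hn', MulAut.apply_inv_self]
    · rw [if_neg hu, Nat.card_eq_zero]
      refine Or.inl ⟨fun ⟨n, hn⟩ => hu ?_⟩
      have := (isConj_iff.2 ⟨α n, by rw [← map_inv, ← map_mul, ← map_mul]⟩ :
        IsConj (α u) (α (n * u * n⁻¹)))
      rwa [(hiff n).1 hn] at this
  have hC : ∑ u : N, f u =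
      Nat.card {C : ConjClasses N // ConjClasses.map α.toMonoidHom C = C} * Nat.card N := by
    rw [Nat.card_eq_fintype_card (α := Subtype _), Fintype.card_subtype, Finset.card_filter,
      Finset.sum_mul, ← Finset.sum_fiberwise Finset.univ (fun u : N => ConjClasses.mk u)]
    refine Finset.sum_congr rfl fun C _ => ?_
    obtain ⟨a, rfl⟩ := ConjClasses.exists_rep C
    have hval : ∀ u ∈ (Finset.univ.filter fun u : N => ConjClasses.mk u = ConjClasses.mk a),
        f u = if ConjClasses.map α.toMonoidHom (ConjClasses.mk a) = ConjClasses.mk a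
          then Nat.card (Subgroup.centralizer ({a} : Set N)) else 0 := by
      intro u hu
      simp only [Finset.mem_filter, Finset.mem_univ, true_and] at hu
      rw [hfix, ← hu]
      have e : ConjClasses.map α.toMonoidHom (ConjClasses.mk u) = ConjClasses.mk u ↔
          IsConj (α u) u := by
        rw [show ConjClasses.map α.toMonoidHom (ConjClasses.mk u) = ConjClasses.mk (α u) from rfl,
          ConjClasses.mk_eq_mk_iff_isConj]
      simp only [e]
      split_ifs
      · obtain ⟨c, hc⟩ := isConj_iff.1 (ConjClasses.mk_eq_mk_iff_isConj.1 hu).symm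
        refine Nat.card_congr ((MulAut.conj c⁻¹).toEquiv.subtypeEquiv fun v => ?_)
        rw [Subgroup.mem_centralizer_singleton_iff, Subgroup.mem_centralizer_singleton_iff]
        show v * u = u * v ↔ c⁻¹ * v * c⁻¹⁻¹ * a = a * (c⁻¹ * v * c⁻¹⁻¹)
        rw [← hc]
        constructor
        · intro hv
          calc c⁻¹ * v * c⁻¹⁻¹ * a = c⁻¹ * (v * (c * a * c⁻¹)) * c := by group
            _ = c⁻¹ * (c * a * c⁻¹ * v) * c := by rw [hv]
            _ = a * (c⁻¹ * v * c⁻¹⁻¹) := by group
        · intro hv
          calc v * (c * a * c⁻¹) = c * (c⁻¹ * v * c⁻¹⁻¹ * a) * c⁻¹ := by group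
            _ = c * (a * (c⁻¹ * v * c⁻¹⁻¹)) * c⁻¹ := by rw [hv]
            _ = c * a * c⁻¹ * v := by group
      · rfl
    rw [Finset.sum_congr rfl hval, Finset.sum_const, smul_eq_mul]
    split_ifs
    · rw [one_mul, ← Cfsg.Agent.Char.card_isConj_mul_card_centralizer a]
      congr 1
      refine congrArg Finset.card (Finset.ext fun v => ?_)
      simp only [Finset.mem_filter, Finset.mem_univ, true_and, ConjClasses.mk_eq_mk_iff_isConj]
      exact isConj_comm
    · simp
  have hpos : 0 < Nat.card N := Nat.card_pos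
  have heq : Nat.card {C : ConjClasses N // ConjClasses.map α.toMonoidHom C = C} =
      Nat.card {u : N // Commute x (u : G)} := by
    rw [hT, mul_comm (Nat.card N)] at hC
    exact (Nat.eq_of_mul_eq_mul_right hpos hC).symm
  rw [heq]
  exact Nat.card_congr
    { toFun := fun u => ⟨(u.1 : G), u.1.2, Subgroup.mem_centralizer_singleton_iff.2 u.2.eq.symm⟩
      invFun := fun u => ⟨⟨(u : G), u.2.1⟩,
        (Subgroup.mem_centralizer_singleton_iff.1 u.2.2).symm⟩
      left_inv := fun u => rfl
      right_inv := fun u => rfl }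

end Cfsg.Agent.CaminaFpf
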